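import Mathlib
import Cfsg.Agent.H277.EM.Univ

/-!
# S2243: rows from a commuting set of the universal cover (helper963)

* `crow_of_set` : `σ : Γ → S` the universal (cyclic multiplier) cover, `s` a set of pairwise commuting elements of `Γ` such
  that each `g` with `g² ∈ ker σ` is conjugate into `s`; then `CRow S`.
-/

set_option autoImplicit false

namespace Cfsg.Agent.H963.EmSet

open Subgroup Cfsg.Agent.H51.Mult Cfsg.Agent.H277.MI

universe u v

/-- **Rows from a commuting set of the universal cover.** -/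
theorem crow_of_set {Γ : Type u} {S : Type v} [Group Γ] [Group S] [Finite Γ] {σ : Γ →* S} (hσ : PCE σ) {n : ℕ}
    (hm : Cfsg.HasCyclicSchurMultiplier S n) (hc : n ≤ Nat.card σ.ker) (s : Set Γ)
    (hs : ∀ x ∈ s, ∀ y ∈ s, x * y = y * x)
    (h : ∀ g : Γ, g * g ∈ σ.ker → ∃ x : Γ, x * g * x⁻¹ ∈ s) : CRow S := by
  intro L _ _ π hπ _
  obtain ⟨f, hf, hfσ⟩ := exists_cover_map_cyclic hσ hπ hm hc
  refine em_of_commuting {y | y * y = 1 ∧ ∃ x ∈ s, f x = y} (fun y hy => hy.1) ?_ ?_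
  · rintro _ ⟨-, a, ha, rfl⟩ _ ⟨-, b, hb, rfl⟩
    rw [← map_mul, ← map_mul, hs a ha b hb]
  · intro t ht
    obtain ⟨g, rfl⟩ := hf t
    have htt := sq_of_orderOf ht
    obtain ⟨x, hx⟩ := h g (by rw [MonoidHom.mem_ker, ← hfσ, map_mul, htt, map_one])
    refine ⟨f x, subset_closure ⟨?_, _, hx, by rw [map_mul, map_mul, map_inv]⟩⟩
    rw [show f x * f g * (f x)⁻¹ * (f x * f g * (f x)⁻¹) = f x * (f g * f g) * (f x)⁻¹ by group, htt, mul_one,
      mul_inv_cancel]

end Cfsg.Agent.H963.EmSet
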