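import Mathlib
import Cfsg.Agent.H963.EmSet
import Cfsg.Agent.H269.Unf.PslOddA
import Cfsg.Agent.H60.MultA
import Cfsg.Agent.Lib.PSL2Torus
import Cfsg.Agent.S0280

/-!
# S2243: the row of `PSL_n(q)`, `q` odd (helper963, task EM-PSL-ODD)
-/

set_option autoImplicit false
set_option linter.unusedSectionVars false

namespace Cfsg.Agent.H963.EmPslOdd

open Matrix Polynomial
open Cfsg.Agent.H51.Mult Cfsg.Agent.H277.MI
open Cfsg.Agent.H269.UnfPsl (isConj_of_gl exists_diag rank_diag det_diag map_eq_of_card two_ne_zero_of_odd)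
open scoped Kronecker MatrixGroups

/-! ### arithmetic -/

theorem arith {F : Type*} [Field F] [Finite F] (h2 : (2 : F) ≠ 0) {h : ℕ} {m c : F} (hm : ¬ IsSquare m)
    (hmh : m ^ h = 1) (hc : c ^ (2 * h) = -1) : False := by
  have hne : (1 : F) ≠ -1 := by
    intro h1
    apply h2
    have : (1 : F) + 1 = 0 := by nth_rewrite 2 [h1]; ring
    rw [← this]; norm_num
  have hm0 : m ≠ 0 := by
    rintro rfl
    exact hm IsSquare.zero
  have hc0 : c ≠ 0 := by
    rintro rfl
    rcases Nat.eq_zero_or_pos h with h0 | h0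
    · rw [h0, mul_zero, pow_zero] at hc
      exact hne hc
    · rw [zero_pow (by omega)] at hc
      exact hne (by linear_combination (2 : F) * hc)
  obtain ⟨z, hz⟩ := IsCyclic.exists_generator (α := Fˣ)
  have hz' : ∀ x : Fˣ, ∃ a : ℕ, z ^ a = x := fun x => by
    have := hz x
    rw [← mem_powers_iff_mem_zpowers] at this
    exact this
  obtain ⟨a, ha⟩ := hz' (Units.mk0 m hm0)
  obtain ⟨b, hb⟩ := hz' (Units.mk0 c hc0)
  have ha' : (z : F) ^ a = m := by
    have := congrArg Units.val ha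
    rwa [Units.val_pow_eq_pow_val, Units.val_mk0] at this
  have hb' : (z : F) ^ b = c := by
    have := congrArg Units.val hb
    rwa [Units.val_pow_eq_pow_val, Units.val_mk0] at this
  have hao : Odd a := by
    rw [← Nat.not_even_iff_odd]
    rintro ⟨r, hr⟩
    exact hm ⟨(z : F) ^ r, by rw [← ha', hr, pow_add]⟩
  have h3 : (-1 : F) ^ a = 1 := by
    calc (-1 : F) ^ a = (((z : F) ^ b) ^ (2 * h)) ^ a := by rw [hb', hc]
      _ = (((z : F) ^ a) ^ h) ^ (2 * b) := by rw [← pow_mul, ← pow_mul, ← pow_mul, ← pow_mul]; congr 1; ring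
      _ = 1 := by rw [ha', hmh, one_pow]
  rw [hao.neg_one_pow] at h3
  exact hne h3.symm

/-! ### scalar squares -/

variable {F : Type*} [Field F] {n : ℕ}

theorem exists_sq {A : SpecialLinearGroup (Fin n) F}
    (hA : A * A ∈ (QuotientGroup.mk' (Subgroup.center (SpecialLinearGroup (Fin n) F))).ker) :
    ∃ l : F, l ^ n = 1 ∧ (A : Matrix (Fin n) (Fin n) F) * A = l • 1 := by
  rw [QuotientGroup.ker_mk'] at hA
  obtain ⟨l, hl, hA⟩ := Matrix.SpecialLinearGroup.mem_center_iff.1 hA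
  refine ⟨l, by simpa using hl, ?_⟩
  rw [smul_one_eq_diagonal]
  exact hA.symm

theorem isSquare_of_odd {l : F} (hn : Odd n) (hl : l ^ n = 1) : IsSquare l := by
  obtain ⟨m, hm⟩ := hn
  have h0 : l ^ m * l ^ m * l = 1 := by
    rw [← hl, hm, pow_succ, two_mul, pow_add]
  refine ⟨(l ^ m)⁻¹, ?_⟩
  rw [← mul_inv]
  exact eq_inv_of_mul_eq_one_right h0

/-- irreducibility of `X² - l` -/
theorem irred {l : F} (hl : ¬ IsSquare l) : Irreducible (X ^ 2 - C l : F[X]) := by
  rw [X_pow_sub_C_irreducible_iff_of_prime Nat.prime_two]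
  intro b hb
  exact hl ⟨b, by rw [← hb, pow_two]⟩

/-- conjugacy of the matrices with the same nonsquare square -/
theorem conj_lam [Finite F] (hn : 0 < n) {l : F} (hl : ¬ IsSquare l) (A : SpecialLinearGroup (Fin n) F)
    (M : Matrix (Fin n) (Fin n) F) (hA : (A : Matrix (Fin n) (Fin n) F) * A = l • 1) (hM : M * M = l • 1) :
    M.det = 1 ∧ ∀ B : SpecialLinearGroup (Fin n) F, (B : Matrix (Fin n) (Fin n) F) = M → IsConj A B := by
  have hne : Nonempty (Fin n) := ⟨⟨0, hn⟩⟩
  have hl0 : l ≠ 0 := by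
    rintro rfl
    exact hl IsSquare.zero
  have h1 : ∀ M : Matrix (Fin n) (Fin n) F, M * M = l • 1 → aeval M (X ^ 2 - C l) = 0 := by
    intro M hM
    rw [map_sub, map_pow, aeval_X, aeval_C, sq, hM, Algebra.algebraMap_eq_smul_one, sub_self]
  have h2 : ∀ M : Matrix (Fin n) (Fin n) F, M * M = l • 1 → M * (l⁻¹ • M) = 1 ∧ (l⁻¹ • M) * M = 1 := by
    intro M hM
    constructor
    · rw [Matrix.mul_smul, hM, smul_smul, inv_mul_cancel₀ hl0, one_smul]
    · rw [Matrix.smul_mul, hM, smul_smul, inv_mul_cancel₀ hl0, one_smul]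
  obtain ⟨g, hg, hgx⟩ := Cfsg.Agent.H956.ConjIrr.exists_conj_sl (irred hl)
    (⟨A, l⁻¹ • (A : Matrix (Fin n) (Fin n) F), (h2 _ hA).1, (h2 _ hA).2⟩ : GL (Fin n) F)
    ⟨M, l⁻¹ • M, (h2 _ hM).1, (h2 _ hM).2⟩ (h1 _ hA) (h1 _ hM)
  refine ⟨?_, fun B hB => isConj_of_gl rfl hB.symm hg hgx⟩
  have h3 : (A : Matrix (Fin n) (Fin n) F) * (g : Matrix (Fin n) (Fin n) F) = (g : Matrix (Fin n) (Fin n) F) * M := by
    rw [mul_assoc, inv_mul_eq_iff_eq_mul] at hgx
    exact congrArg (fun M : GL (Fin n) F => (M : Matrix (Fin n) (Fin n) F)) hgx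
  have h4 := congrArg Matrix.det h3
  rw [det_mul, det_mul, A.det_coe, hg, one_mul, one_mul] at h4
  exact h4.symm

/-- conjugacy of `c t`, `t` an involutory matrix -/
theorem conj_diag [NeZero n] (A : SpecialLinearGroup (Fin n) F) {c : F} {S : GL (Fin n) F} {d e : Fin n → F}
    (hA : (A : Matrix (Fin n) (Fin n) F) = c • ((S : Matrix (Fin n) (Fin n) F) * Matrix.diagonal d *
      ((S⁻¹ : GL (Fin n) F) : Matrix (Fin n) (Fin n) F)))
    (hde : (Finset.univ : Finset (Fin n)).val.map d = Finset.univ.val.map e) :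
    (c • Matrix.diagonal e).det = 1 ∧
      ∀ B : SpecialLinearGroup (Fin n) F, (B : Matrix (Fin n) (Fin n) F) = c • Matrix.diagonal e → IsConj A B := by
  have h1 : ∀ d : Fin n → F, c • Matrix.diagonal d = Matrix.diagonal (fun i => c * d i) := by
    intro d
    rw [← Matrix.diagonal_smul]
    rfl
  have hA' : (A : Matrix (Fin n) (Fin n) F) = (S : Matrix (Fin n) (Fin n) F) * Matrix.diagonal (fun i => c * d i) *
      ((S⁻¹ : GL (Fin n) F) : Matrix (Fin n) (Fin n) F) := by
    rw [hA, ← h1, Matrix.mul_smul, Matrix.smul_mul]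
  have hprod : ∏ i, (c * d i) = 1 := by
    have h4 := A.det_coe
    rw [hA', det_mul, det_mul, mul_right_comm, ← det_mul, Cfsg.Agent.H956.Conj.mul_inv_self', det_one, one_mul,
      det_diagonal] at h4
    exact h4
  have hmap : (Finset.univ : Finset (Fin n)).val.map (fun i => c * d i) = Finset.univ.val.map (fun i => c * e i) := by
    have := congrArg (Multiset.map (fun x => c * x)) hde
    rwa [Multiset.map_map, Multiset.map_map] at this
  have hprod' : ∏ i, (c * e i) = 1 := by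
    rw [← hprod]
    show (Finset.univ.val.map (fun i => c * e i)).prod = (Finset.univ.val.map (fun i => c * d i)).prod
    rw [hmap]
  refine ⟨by rw [h1, det_diagonal, hprod'], fun B hB => ?_⟩
  obtain ⟨g, hg, hgx⟩ := Cfsg.Agent.H956.Conj.conj_of_diag (SpecialLinearGroup.toGL A) (SpecialLinearGroup.toGL B) S 1
    (fun i => c * d i) (fun i => c * e i) hA' (by
      show (B : Matrix (Fin n) (Fin n) F) = _
      rw [hB, inv_one, Units.val_one, Matrix.one_mul, Matrix.mul_one, h1]) hmap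
  exact isConj_of_gl rfl rfl hg hgx

/-- the square case of the decomposition -/
theorem exists_form [DecidableEq F] (h2 : (2 : F) ≠ 0) (A : SpecialLinearGroup (Fin n) F) {c : F} (hc : c ≠ 0)
    (hA : (A : Matrix (Fin n) (Fin n) F) * A = (c * c) • 1) :
    ∃ (S : GL (Fin n) F) (d : Fin n → F), (∀ i, d i = 1 ∨ d i = -1) ∧
      (A : Matrix (Fin n) (Fin n) F) = c • ((S : Matrix (Fin n) (Fin n) F) * Matrix.diagonal d *
        ((S⁻¹ : GL (Fin n) F) : Matrix (Fin n) (Fin n) F)) ∧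
      c ^ n * (-1) ^ (Finset.univ.filter fun i => d i = -1).card = 1 := by
  obtain ⟨t, ht⟩ : ∃ t : Matrix (Fin n) (Fin n) F, t = c⁻¹ • (A : Matrix (Fin n) (Fin n) F) := ⟨_, rfl⟩
  have hAt : (A : Matrix (Fin n) (Fin n) F) = c • t := by
    rw [ht, smul_smul, mul_inv_cancel₀ hc, one_smul]
  have htt : t * t = 1 := by
    rw [ht, Matrix.smul_mul, Matrix.mul_smul, hA, smul_smul, smul_smul]
    have : c⁻¹ * c⁻¹ * (c * c) = 1 := by field_simp
    rw [this, one_smul]
  obtain ⟨S, d, hd, htS⟩ := exists_diag h2 htt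
  refine ⟨S, d, hd, by rw [hAt, ← htS], ?_⟩
  have h3 := det_diag hd htS
  rw [← h3]
  have h4 := A.det_coe
  rw [hAt, det_smul, Fintype.card_fin] at h4
  exact h4

/-! ### the commuting set: no nonsquare type -/

theorem set_diag [NeZero n] (h2 : (2 : F) ≠ 0)
    (hns : ∀ (A : SpecialLinearGroup (Fin n) F) (l : F), (A : Matrix (Fin n) (Fin n) F) * A = l • 1 → IsSquare l) :
    ∃ s : Set (SpecialLinearGroup (Fin n) F), (∀ x ∈ s, ∀ y ∈ s, x * y = y * x) ∧
      ∀ (A : SpecialLinearGroup (Fin n) F) (l : F), l ≠ 0 → (A : Matrix (Fin n) (Fin n) F) * A = l • 1 →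
        ∃ B ∈ s, IsConj A B := by
  classical
  refine ⟨{D | ∃ d : Fin n → F, (D : Matrix (Fin n) (Fin n) F) = Matrix.diagonal d}, ?_, ?_⟩
  · rintro A ⟨d, hA⟩ B ⟨e, hB⟩
    apply Subtype.ext
    show (A : Matrix (Fin n) (Fin n) F) * (B : Matrix (Fin n) (Fin n) F) =
      (B : Matrix (Fin n) (Fin n) F) * (A : Matrix (Fin n) (Fin n) F)
    rw [hA, hB, diagonal_mul_diagonal, diagonal_mul_diagonal]
    congr 1
    funext i
    exact mul_comm _ _
  · intro A l hl0 hA
    obtain ⟨c, rfl⟩ := hns A l hA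
    have hc : c ≠ 0 := fun h => hl0 (by rw [h, mul_zero])
    obtain ⟨S, d, hd, hAS, -⟩ := exists_form h2 A hc hA
    obtain ⟨hdet, hconj⟩ := conj_diag A hAS (e := d) rfl
    refine ⟨⟨_, hdet⟩, ⟨fun i => c * d i, ?_⟩, hconj _ rfl⟩
    show c • Matrix.diagonal d = _
    rw [← Matrix.diagonal_smul]
    rfl

/-! ### the commuting set: a nonsquare type -/

/-- the block matrix -/
def blk {h : ℕ} (e : Fin 2 × Fin h ≃ Fin n) (l : F) : Matrix (Fin n) (Fin n) F :=
  Matrix.reindex e e (!![0, l; 1, 0] ⊗ₖ (1 : Matrix (Fin h) (Fin h) F))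

/-- the signs -/
def sgn (F : Type*) [Field F] {h : ℕ} (e : Fin 2 × Fin h ≃ Fin n) (r : ℕ) (i : Fin n) : F :=
  if ((e.symm i).2 : ℕ) < r then -1 else 1

theorem blk_sq {h : ℕ} (e : Fin 2 × Fin h ≃ Fin n) (l : F) : blk e l * blk e l = l • 1 := by
  have h1 := Matrix.mul_kronecker_mul !![0, l; 1, 0] !![0, l; 1, 0] (1 : Matrix (Fin h) (Fin h) F)
    (1 : Matrix (Fin h) (Fin h) F)
  rw [Matrix.mul_one] at h1
  have h3 : (!![0, l; 1, 0] * !![0, l; 1, 0] : Matrix (Fin 2) (Fin 2) F) = l • 1 := by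
    ext i j
    fin_cases i <;> fin_cases j <;> simp [Matrix.mul_apply, Fin.sum_univ_two]
  have h4 : blk e l * blk e l = Matrix.reindex e e ((!![0, l; 1, 0] * !![0, l; 1, 0]) ⊗ₖ (1 : Matrix (Fin h) (Fin h) F)) := by
    rw [h1]
    unfold blk
    simp only [Matrix.reindex_apply, Matrix.submatrix_mul_equiv]
  rw [h4, h3, Matrix.smul_kronecker, Matrix.one_kronecker_one]
  ext i j
  simp [Matrix.one_apply]

theorem blk_det {h : ℕ} (e : Fin 2 × Fin h ≃ Fin n) (l : F) : (blk e l).det = (-l) ^ h := by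
  unfold blk
  rw [Matrix.det_reindex_self, Matrix.det_kronecker, Matrix.det_one, one_pow, mul_one, Matrix.det_fin_two_of,
    Fintype.card_fin]
  congr 1
  ring

theorem blk_comm {h : ℕ} (e : Fin 2 × Fin h ≃ Fin n) (l : F) (r : ℕ) :
    blk e l * Matrix.diagonal (sgn F e r) = Matrix.diagonal (sgn F e r) * blk e l := by
  ext i j
  rw [Matrix.mul_diagonal, Matrix.diagonal_mul]
  by_cases hij : (e.symm i).2 = (e.symm j).2
  · unfold sgn
    rw [hij, mul_comm]
  · have h0 : blk e l i j = 0 := by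
      unfold blk
      rw [Matrix.reindex_apply, Matrix.submatrix_apply, Matrix.kroneckerMap_apply, Matrix.one_apply_ne hij, mul_zero]
    rw [h0, zero_mul, mul_zero]

theorem sgn_cases {h : ℕ} (e : Fin 2 × Fin h ≃ Fin n) (r : ℕ) (i : Fin n) : sgn F e r i = 1 ∨ sgn F e r i = -1 := by
  unfold sgn
  split_ifs
  · right; rfl
  · left; rfl

theorem card_lt {h r : ℕ} (hr : r ≤ h) : (Finset.univ.filter fun j : Fin h => (j : ℕ) < r).card = r := by
  have h1 : ((Finset.univ.filter fun j : Fin h => (j : ℕ) < r).map ⟨Fin.val, Fin.val_injective⟩) = Finset.range r := by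
    ext m
    simp only [Finset.mem_map, Finset.mem_filter, Finset.mem_univ, true_and, Function.Embedding.coeFn_mk,
      Finset.mem_range]
    constructor
    · rintro ⟨j, h1, rfl⟩
      exact h1
    · intro hm
      exact ⟨⟨m, by omega⟩, hm, rfl⟩
  have h2 := congrArg Finset.card h1
  rwa [Finset.card_map, Finset.card_range] at h2

theorem card_sgn [DecidableEq F] (h2 : (2 : F) ≠ 0) {h r : ℕ} (e : Fin 2 × Fin h ≃ Fin n) (hr : r ≤ h) :
    (Finset.univ.filter fun i => sgn F e r i = -1).card = 2 * r := by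
  have hne : (1 : F) ≠ -1 := by
    intro h1
    apply h2
    have : (1 : F) + 1 = 0 := by nth_rewrite 2 [h1]; ring
    rw [← this]; norm_num
  have h1 : (Finset.univ.filter fun i => sgn F e r i = -1) =
      (((Finset.univ : Finset (Fin 2)) ×ˢ (Finset.univ.filter fun j : Fin h => (j : ℕ) < r)).map e.toEmbedding) := by
    ext i
    simp only [Finset.mem_filter, Finset.mem_univ, true_and, Finset.mem_map, Finset.mem_product, Equiv.coe_toEmbedding]
    constructor
    · intro hi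
      refine ⟨e.symm i, ?_, e.apply_symm_apply i⟩
      by_contra h3
      unfold sgn at hi
      rw [if_neg h3] at hi
      exact hne hi
    · rintro ⟨p, hp, rfl⟩
      unfold sgn
      rw [e.symm_apply_apply, if_pos hp]
  rw [h1, Finset.card_map, Finset.card_product, card_lt hr, Finset.card_univ, Fintype.card_fin]

theorem set_blk [Finite F] [NeZero n] (h2 : (2 : F) ≠ 0) (A₀ : SpecialLinearGroup (Fin n) F) {l₀ : F}
    (hl₀ : ¬ IsSquare l₀) (hA₀ : (A₀ : Matrix (Fin n) (Fin n) F) * A₀ = l₀ • 1) :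
    ∃ s : Set (SpecialLinearGroup (Fin n) F), (∀ x ∈ s, ∀ y ∈ s, x * y = y * x) ∧
      ∀ (A : SpecialLinearGroup (Fin n) F) (l : F), l ≠ 0 → (A : Matrix (Fin n) (Fin n) F) * A = l • 1 →
        ∃ B ∈ s, IsConj A B := by
  classical
  have : Fintype F := Fintype.ofFinite F
  have hn0 : 0 < n := Nat.pos_of_ne_zero (NeZero.ne n)
  have hl00 : l₀ ≠ 0 := by
    rintro rfl
    exact hl₀ IsSquare.zero
  have hln : l₀ ^ n = 1 := by
    have h1 := congrArg Matrix.det hA₀
    rw [Matrix.det_mul, A₀.det_coe, Matrix.det_smul, Matrix.det_one, Fintype.card_fin, mul_one, mul_one] at h1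
    exact h1.symm
  obtain ⟨h, hh⟩ : ∃ h, n = 2 * h := by
    rcases Nat.even_or_odd' n with ⟨h, h1 | h1⟩
    · exact ⟨h, h1⟩
    · exact absurd (isSquare_of_odd ⟨h, h1⟩ hln) hl₀
  obtain ⟨e⟩ : Nonempty (Fin 2 × Fin h ≃ Fin n) := by
    rw [← Fintype.card_eq]; simp [hh]
  have hdet0 := (conj_lam hn0 hl₀ A₀ (blk e l₀) hA₀ (blk_sq e l₀)).1
  have hdet0' := hdet0
  rw [blk_det] at hdet0'
  refine ⟨{B | (∃ c : F, (B : Matrix (Fin n) (Fin n) F) = c • blk e l₀) ∨
    ∃ (c : F) (r : ℕ), (B : Matrix (Fin n) (Fin n) F) = c • Matrix.diagonal (sgn F e r)}, ?_, ?_⟩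
  · intro A hA B hB
    apply Subtype.ext
    show (A : Matrix (Fin n) (Fin n) F) * (B : Matrix (Fin n) (Fin n) F) =
      (B : Matrix (Fin n) (Fin n) F) * (A : Matrix (Fin n) (Fin n) F)
    rcases hA with ⟨c, hA⟩ | ⟨c, r, hA⟩ <;> rcases hB with ⟨c', hB⟩ | ⟨c', r', hB⟩ <;> rw [hA, hB] <;>
      simp only [Matrix.smul_mul, Matrix.mul_smul, smul_smul, mul_comm c' c]
    · rw [blk_comm]
    · rw [blk_comm]
    · rw [diagonal_mul_diagonal, diagonal_mul_diagonal]
      congr 2
      funext i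
      exact mul_comm _ _
  · intro A l hl0 hA
    by_cases hl : IsSquare l
    · obtain ⟨c, rfl⟩ := hl
      have hc : c ≠ 0 := fun h => hl0 (by rw [h, mul_zero])
      obtain ⟨S, d, hd, hAS, hcn⟩ := exists_form h2 A hc hA
      have hev : Even (Finset.univ.filter fun i => d i = -1).card := by
        by_contra hodd
        rw [Nat.not_even_iff_odd] at hodd
        rw [hodd.neg_one_pow] at hcn
        have hcn' : c ^ (2 * h) = -1 := by rw [← hh]; linear_combination -hcn
        refine arith h2 (m := -l₀) ?_ hdet0' hcn'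
        intro hs
        apply hl₀
        have h3 : IsSquare (-1 : F) := ⟨c ^ h, by rw [← hcn', two_mul, pow_add]⟩
        have h4 := h3.mul hs
        rwa [neg_one_mul, neg_neg] at h4
      obtain ⟨r, hr⟩ := hev
      have hle : (Finset.univ.filter fun i => d i = -1).card ≤ n := by
        refine (Finset.card_filter_le _ _).trans ?_
        rw [Finset.card_univ, Fintype.card_fin]
      have hmap := map_eq_of_card h2 d (sgn F e r) hd (sgn_cases e r) (by
        rw [card_sgn h2 e (by omega), hr, two_mul])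
      obtain ⟨hdet, hconj⟩ := conj_diag A hAS hmap
      exact ⟨⟨_, hdet⟩, Or.inr ⟨c, r, rfl⟩, hconj _ rfl⟩
    · have hF2 : ringChar F ≠ 2 := by
        intro h5
        apply h2
        have := ringChar.spec F 2
        rw [h5] at this
        exact_mod_cast this.2 dvd_rfl
      obtain ⟨m, hm⟩ : IsSquare (l * l₀) := by
        rw [← quadraticChar_one_iff_isSquare (mul_ne_zero hl0 hl00), map_mul,
          quadraticChar_neg_one_iff_not_isSquare.2 hl, quadraticChar_neg_one_iff_not_isSquare.2 hl₀]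
        norm_num
      obtain ⟨c, hc⟩ : ∃ c : F, c = m * l₀⁻¹ := ⟨_, rfl⟩
      have hcl : c * c * l₀ = l := by
        rw [hc]
        field_simp
        linear_combination -hm
      have hM : (c • blk e l₀) * (c • blk e l₀) = l • 1 := by
        rw [Matrix.smul_mul, Matrix.mul_smul, blk_sq, smul_smul, smul_smul, ← hcl]
      obtain ⟨hdet, hconj⟩ := conj_lam hn0 hl A (c • blk e l₀) hA hM
      exact ⟨⟨_, hdet⟩, Or.inl ⟨c, rfl⟩, hconj _ rfl⟩

/-- **The commuting set.** -/
theorem exists_set [Finite F] [NeZero n] (h2 : (2 : F) ≠ 0) :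
    ∃ s : Set (SpecialLinearGroup (Fin n) F), (∀ x ∈ s, ∀ y ∈ s, x * y = y * x) ∧
      ∀ (A : SpecialLinearGroup (Fin n) F) (l : F), l ≠ 0 → (A : Matrix (Fin n) (Fin n) F) * A = l • 1 →
        ∃ B ∈ s, IsConj A B := by
  by_cases hns : ∀ (A : SpecialLinearGroup (Fin n) F) (l : F), (A : Matrix (Fin n) (Fin n) F) * A = l • 1 → IsSquare l
  · exact set_diag h2 hns
  · push Not at hns
    obtain ⟨A₀, l₀, hA₀, hl₀⟩ := hns
    exact set_blk h2 A₀ hl₀ hA₀

universe u

theorem crow_psl_of_three {F : Type} [Field F] [Fintype F] (hF : Odd (Fintype.card F)) {n : ℕ} (hn : 3 ≤ n) :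
    CRow (Matrix.ProjectiveSpecialLinearGroup (Fin n) F) := by
  have h2 : (2 : F) ≠ 0 := two_ne_zero_of_odd hF
  have : NeZero n := ⟨by omega⟩
  obtain ⟨s, hs, hsc⟩ := exists_set (n := n) h2
  have hok : Cfsg.Agent.H60.MultA.Ok n (Nat.card F) := by
    rw [Nat.card_eq_fintype_card]
    refine ⟨by omega, by omega, ?_⟩
    simp only [Set.mem_insert_iff, Set.mem_singleton_iff, Prod.mk.injEq, not_or]
    obtain ⟨k, hk⟩ := hF
    omega
  have hσ : PCE (QuotientGroup.mk' (Subgroup.center (SpecialLinearGroup (Fin n) F))) :=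
    ⟨QuotientGroup.mk'_surjective _, by rw [QuotientGroup.ker_mk'], Cfsg.Agent.H60.MultA.perfect_SL hok⟩
  refine Cfsg.Agent.H963.EmSet.crow_of_set hσ (Cfsg.Agent.H60.MultA.hasMultiplier_PSL hok) ?_ s hs ?_
  · rw [QuotientGroup.ker_mk', Cfsg.Agent.S0280.card_center_SL (by omega), Nat.card_eq_fintype_card]
  · intro g hg
    obtain ⟨l, hl, hgl⟩ := exists_sq hg
    have hl0 : l ≠ 0 := by
      rintro rfl
      rw [zero_pow (by omega)] at hl
      exact zero_ne_one hl
    obtain ⟨B, hB, hgB⟩ := hsc g l hl0 hgl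
    obtain ⟨x, hx⟩ := isConj_iff.1 hgB
    exact ⟨x, by rw [hx]; exact hB⟩

/-- **EM-PSL-ODD**: the row of `PSL_n(q)`, `q` odd. -/
theorem crow_psl_odd {F : Type} [Field F] [Fintype F] (hF : Odd (Fintype.card F)) {n : Nat} (hn : 2 <= n)
    (_h2 : n = 2 -> 4 <= Fintype.card F) {L : Type u} [Group L] [Finite L] [IsSimpleGroup L]
    (e : L ≃* Matrix.ProjectiveSpecialLinearGroup (Fin n) F) : CRow L := by
  rcases Nat.lt_or_ge n 3 with h3 | h3
  · have hn2 : n = 2 := by omega
    subst hn2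
    refine CRow.of_one_class fun x y hx hy => isConj_iff.2 ?_
    exact Cfsg.Agent.Lib.PSL2Torus.conj_inv (two_ne_zero_of_odd hF) e (ne_one_of_orderOf hx) (sq_of_orderOf hx)
      (ne_one_of_orderOf hy) (sq_of_orderOf hy)
  · exact CRow.congr e (crow_psl_of_three hF h3)

end Cfsg.Agent.H963.EmPslOdd
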